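import Cfsg.Agent.Lib.AltModule.P2.M1.Def
import Cfsg.Agent.Lib.AltModule.P2.M2.Def

/-!
Checks for piece 2 of the certificate.
-/

namespace Cfsg.Agent.AltMod.P2.M1

def c2_0 : List (ℕ) := [0x10000000000000001000100000000,
  0x10000000000000001000100000000,
  0x10000000100010001000100000001,
  0x1000100000000000000000000,
  0x10000000000000001000100000000,
  0x100010000000000000001,
  0x10001000100000001000100000000,
  0x10000000100010001000100000001,
  0x1000100010000000000000001,
  0x1000100000000000000000000,
  0,
  0,
  0,
  0,
  0,
  0,
  0,
  0,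
  0x1000100010000000000000001,
  0]

def c2_1 : List (ℕ) := [0,
  0x10000000000000001000100000000,
  0,
  0,
  0x10000000100010001000100000001,
  0x10000000000000001000100000000,
  0x10000000000010001000100000001,
  0x10000000100010001000100000001,
  0,
  0x1000100000000000000000000,
  0x10000000100010001000100000001,
  0,
  0,
  0x10000000000000001000100000000,
  0,
  0,
  0x10000000000010001000100000001,
  0,
  0x1000100010000000000000001,
  0x1000100000000000000000000]

def c2_2 : List (ℕ) := [0,
  0x10000000000000001000100000000,
  0,
  0,
  0x1000100000000000000000000,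
  0x10000000000000001,
  0x10000000000000001000100000000,
  0x10000000100010001000100000001,
  0,
  0x1000100000000000000000000,
  0,
  0x1000100000000000000000000,
  0,
  0,
  0x10000000000000001,
  0,
  0,
  0x10000000000000001000100000000,
  0x1000100010000000000000001,
  0]

def c2_3 : List (ℕ) := [0,
  0x10000000000000001000100000000,
  0,
  0,
  0x10001000100000001000100000000,
  0x10000000100000001000100000000,
  0x1000100000000000000000000,
  0x10000000100010001000100000001,
  0,
  0x1000100000000000000000000,
  0,
  0,
  0x10001000100000001000100000000,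
  0,
  0,
  0x10000000100000001000100000000,
  0,
  0,
  0x1000100010000000000000001,
  0]

def c2_4 : List (ℕ) := [0,
  0x10000000000000001000100000000,
  0,
  0,
  0x100010000000000000001,
  0x10000000100010001000100000001,
  0x10001000100010001000100000001,
  0x10000000100010001000100000001,
  0,
  0x1000100000000000000000000,
  0,
  0,
  0,
  0,
  0,
  0,
  0,
  0,
  0x1000100010000000000000001,
  0]

def c2 : List (List ℕ) := [c2_0, c2_1, c2_2, c2_3, c2_4]

theorem fac2_0 : mdl.factorOk 2 M2.mdl pc2 k2 0 c2_0 = true := by
  decide +kernel

theorem fac2_1 : mdl.factorOk 2 M2.mdl pc2 k2 1 c2_1 = true := by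
  decide +kernel

theorem fac2_2 : mdl.factorOk 2 M2.mdl pc2 k2 2 c2_2 = true := by
  decide +kernel

theorem fac2_3 : mdl.factorOk 2 M2.mdl pc2 k2 3 c2_3 = true := by
  decide +kernel

theorem fac2_4 : mdl.factorOk 2 M2.mdl pc2 k2 4 c2_4 = true := by
  decide +kernel

end Cfsg.Agent.AltMod.P2.M1
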